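import Cfsg.Agent.H693.Sch.Value
import Mathlib.Algebra.Polynomial.Eval.Coeff
import Mathlib.Algebra.Polynomial.BigOperators
import Mathlib.Data.Rat.Cast.Order
import Mathlib.Tactic

/-!
# The characters of the dual polar schemes (helper722)

1. `FF Q s m j = ∏_{l < m - j} (1 + s Q^l x) ∏_{l < j} (1 - Q^l x)`: the coefficient `PP Q s m j i` of `x^i` is the
eigenvalue `P_i(j)` of the relation "codimension `i`" on the `j`-th eigenspace of the dual polar space of rank `m` with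
parameters `Q`, `s`; `ff Q s m j` is the multiplicity.
2. `DR.exists_char`: the irreducible character of a spherical function of any distance transitive action.
3. `DP.exists_char`: `G` acts on `X` preserving `d : X → X → ℕ`, transitively on the pairs at every distance, with the
intersection numbers `b_i = s Q^i [m-i]`, `c_i = [i]` of a dual polar space of rank `m`.  For every `j ≤ m` there is an
irreducible character of degree `ff Q s m j` with the spherical function `om m Q s j i = P_i(j) / k_i`, `k_i = P_i(0)`.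
-/

set_option autoImplicit false
set_option linter.unusedSectionVars false

namespace Cfsg.Agent.H722.DPol

open Polynomial Finset

section ring

variable {R : Type*} [CommRing R]

/-- The generating function of the eigenvalues. -/
noncomputable def FF (Q s : R) (m j : ℕ) : R[X] :=
  (∏ l ∈ range (m - j), (1 + C (s * Q ^ l) * X)) * ∏ l ∈ range j, (1 - C (Q ^ l) * X)

/-- The eigenvalue `P_i(j)`. -/
noncomputable def PP (Q s : R) (m j i : ℕ) : R := (FF Q s m j).coeff i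

theorem FF_comp (Q s : R) (m j : ℕ) :
    (1 + C s * X) * (1 - X) * (FF Q s m j).comp (C Q * X) =
      (1 + C (s * Q ^ (m - j)) * X) * (1 - C (Q ^ j) * X) * FF Q s m j := by
  have h1 : ∀ k : ℕ, (1 + C s * X) * ∏ l ∈ range k, (1 + C (s * Q ^ (l + 1)) * X) =
      (1 + C (s * Q ^ k) * X) * ∏ l ∈ range k, (1 + C (s * Q ^ l) * (X : R[X])) := by
    intro k
    have e1 := prod_range_succ' (fun l => 1 + C (s * Q ^ l) * (X : R[X])) k
    have e2 := prod_range_succ (fun l => 1 + C (s * Q ^ l) * (X : R[X])) k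
    rw [e1] at e2
    simp only [pow_zero, mul_one] at e2
    rw [mul_comm, e2, mul_comm]
  have h2 : ∀ k : ℕ, (1 - X) * ∏ l ∈ range k, (1 - C (Q ^ (l + 1)) * X) =
      (1 - C (Q ^ k) * X) * ∏ l ∈ range k, (1 - C (Q ^ l) * (X : R[X])) := by
    intro k
    have e1 := prod_range_succ' (fun l => 1 - C (Q ^ l) * (X : R[X])) k
    have e2 := prod_range_succ (fun l => 1 - C (Q ^ l) * (X : R[X])) k
    rw [e1] at e2
    simp only [pow_zero, map_one, one_mul] at e2
    rw [mul_comm, e2, mul_comm]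
  have h3 : (FF Q s m j).comp (C Q * X) =
      (∏ l ∈ range (m - j), (1 + C (s * Q ^ (l + 1)) * X)) * ∏ l ∈ range j, (1 - C (Q ^ (l + 1)) * X) := by
    unfold FF
    rw [mul_comp, Polynomial.prod_comp, Polynomial.prod_comp]
    congr 1
    · refine prod_congr rfl fun l _ => ?_
      simp only [add_comp, one_comp, mul_comp, C_comp, X_comp]
      simp only [pow_succ, map_mul]
      ring
    · refine prod_congr rfl fun l _ => ?_
      simp only [sub_comp, one_comp, mul_comp, C_comp, X_comp]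
      simp only [pow_succ, map_mul]
      ring
  rw [h3]
  calc (1 + C s * X) * (1 - X) * ((∏ l ∈ range (m - j), (1 + C (s * Q ^ (l + 1)) * X)) *
        ∏ l ∈ range j, (1 - C (Q ^ (l + 1)) * X))
      = ((1 + C s * X) * ∏ l ∈ range (m - j), (1 + C (s * Q ^ (l + 1)) * X)) *
        ((1 - X) * ∏ l ∈ range j, (1 - C (Q ^ (l + 1)) * X)) := by ring
    _ = _ := by
      rw [h1, h2]
      unfold FF
      ring

theorem PP_zero (Q s : R) (m j : ℕ) : PP Q s m j 0 = 1 := by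
  unfold PP FF
  rw [mul_coeff_zero, coeff_zero_prod, coeff_zero_prod]
  simp

/-- The three term recursion, first step. -/
theorem PP_rec_zero (Q s : R) {m j : ℕ} (hj : j ≤ m) :
    (Q - 1) * PP Q s m j 1 + ((s - 1) - (s * Q ^ (m - j) - Q ^ j)) * PP Q s m j 0 = 0 := by
  have h := FF_comp Q s m j
  have h1 : (1 + C s * X) * (1 - X) * (FF Q s m j).comp (C Q * X) = (FF Q s m j).comp (C Q * X) +
      X * (C (s - 1) * (FF Q s m j).comp (C Q * X)) - X * (X * (C s * (FF Q s m j).comp (C Q * X))) := by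
    rw [map_sub, map_one]
    ring
  have hQ : Q ^ (m - j) * Q ^ j = Q ^ m := by rw [← pow_add, Nat.sub_add_cancel hj]
  have h2 : (1 + C (s * Q ^ (m - j)) * X) * (1 - C (Q ^ j) * X) * FF Q s m j = FF Q s m j +
      X * (C (s * Q ^ (m - j) - Q ^ j) * FF Q s m j) - X * (X * (C (s * Q ^ m) * FF Q s m j)) := by
    rw [← hQ]
    simp only [map_sub, map_mul]
    ring
  rw [h1, h2] at h
  have h3 := congrArg (fun p => p.coeff (0 + 1)) h
  simp only [coeff_add, coeff_sub, coeff_X_mul, coeff_C_mul, comp_C_mul_X_coeff, coeff_X_mul_zero] at h3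
  unfold PP
  simp only [zero_add, pow_one, pow_zero, mul_one, sub_zero] at h3 ⊢
  linear_combination h3

/-- The three term recursion. -/
theorem PP_rec (Q s : R) {m j : ℕ} (hj : j ≤ m) (i : ℕ) :
    (Q ^ (i + 2) - 1) * PP Q s m j (i + 2) + ((s - 1) * Q ^ (i + 1) - (s * Q ^ (m - j) - Q ^ j)) * PP Q s m j (i + 1) +
      s * (Q ^ m - Q ^ i) * PP Q s m j i = 0 := by
  have h := FF_comp Q s m j
  have h1 : (1 + C s * X) * (1 - X) * (FF Q s m j).comp (C Q * X) = (FF Q s m j).comp (C Q * X) +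
      X * (C (s - 1) * (FF Q s m j).comp (C Q * X)) - X * (X * (C s * (FF Q s m j).comp (C Q * X))) := by
    rw [map_sub, map_one]
    ring
  have hQ : Q ^ (m - j) * Q ^ j = Q ^ m := by rw [← pow_add, Nat.sub_add_cancel hj]
  have h2 : (1 + C (s * Q ^ (m - j)) * X) * (1 - C (Q ^ j) * X) * FF Q s m j = FF Q s m j +
      X * (C (s * Q ^ (m - j) - Q ^ j) * FF Q s m j) - X * (X * (C (s * Q ^ m) * FF Q s m j)) := by
    rw [← hQ]
    simp only [map_sub, map_mul]
    ring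
  rw [h1, h2] at h
  have h3 := congrArg (fun p => p.coeff (i + 1 + 1)) h
  simp only [coeff_add, coeff_sub, coeff_X_mul, coeff_C_mul, comp_C_mul_X_coeff] at h3
  unfold PP
  linear_combination h3

/-- Row `0`: the valencies. -/
theorem PP_val (Q s : R) (m i : ℕ) :
    (Q ^ (i + 1) - 1) * PP Q s m 0 (i + 1) = s * (Q ^ m - Q ^ i) * PP Q s m 0 i := by
  have h1 : (1 + C s * X) * (FF Q s m 0).comp (C Q * X) = (1 + C (s * Q ^ m) * X) * FF Q s m 0 := by
    unfold FF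
    simp only [Nat.sub_zero, range_zero, prod_empty, mul_one]
    rw [Polynomial.prod_comp]
    have e1 := prod_range_succ' (fun l => 1 + C (s * Q ^ l) * (X : R[X])) m
    have e2 := prod_range_succ (fun l => 1 + C (s * Q ^ l) * (X : R[X])) m
    rw [e1] at e2
    simp only [pow_zero, mul_one] at e2
    have e3 : ∏ l ∈ range m, (1 + C (s * Q ^ l) * X).comp (C Q * X) =
        ∏ l ∈ range m, (1 + C (s * Q ^ (l + 1)) * (X : R[X])) := by
      refine prod_congr rfl fun l _ => ?_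
      simp only [add_comp, one_comp, mul_comp, C_comp, X_comp]
      simp only [pow_succ, map_mul]
      ring
    rw [e3, mul_comm, e2, mul_comm]
  have h2 : (FF Q s m 0).comp (C Q * X) + X * (C s * (FF Q s m 0).comp (C Q * X)) =
      FF Q s m 0 + X * (C (s * Q ^ m) * FF Q s m 0) := by
    linear_combination h1
  have h3 := congrArg (fun p => p.coeff (i + 1)) h2
  simp only [coeff_add, coeff_X_mul, coeff_C_mul, comp_C_mul_X_coeff] at h3
  unfold PP
  linear_combination h3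

theorem FF_natDegree (Q s : R) {m j : ℕ} (hj : j ≤ m) : (FF Q s m j).natDegree ≤ m := by
  unfold FF
  refine natDegree_mul_le.trans ?_
  have h1 : (∏ l ∈ range (m - j), (1 + C (s * Q ^ l) * (X : R[X]))).natDegree ≤ m - j := by
    refine (natDegree_prod_le _ _).trans ?_
    refine (sum_le_card_nsmul _ _ 1 fun l _ => ?_).trans (by simp)
    compute_degree
  have h2 : (∏ l ∈ range j, (1 - C (Q ^ l) * (X : R[X]))).natDegree ≤ j := by
    refine (natDegree_prod_le _ _).trans ?_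
    refine (sum_le_card_nsmul _ _ 1 fun l _ => ?_).trans (by simp)
    compute_degree
  omega

theorem PP_of_lt (Q s : R) {m j i : ℕ} (hj : j ≤ m) (hi : m < i) : PP Q s m j i = 0 :=
  coeff_eq_zero_of_natDegree_lt ((FF_natDegree Q s hj).trans_lt hi)

theorem PP_map {S : Type*} [CommRing S] (f : R →+* S) (Q s : R) (m j i : ℕ) :
    f (PP Q s m j i) = PP (f Q) (f s) m j i := by
  unfold PP FF
  rw [← coeff_map]
  congr 1
  simp [Polynomial.map_prod]

theorem sum_PP (Q s : R) {m j : ℕ} (hj : j ≤ m) :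
    ∑ i ∈ range (m + 1), PP Q s m j i = (FF Q s m j).eval 1 := by
  rw [eval_eq_sum_range' (Nat.lt_succ_of_le (FF_natDegree Q s hj))]
  simp [PP]

theorem sum_val (Q s : R) (m : ℕ) : ∑ i ∈ range (m + 1), PP Q s m 0 i = ∏ l ∈ range m, (1 + s * Q ^ l) := by
  rw [sum_PP Q s (Nat.zero_le m)]
  unfold FF
  simp [eval_prod]

end ring

section ord

variable {K : Type*} [Field K] [LinearOrder K] [IsStrictOrderedRing K] {Q s : K}

theorem pow_sub_pos (hQ : 1 < Q) {a b : ℕ} (h : a < b) : 0 < Q ^ b - Q ^ a :=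
  sub_pos.2 (pow_lt_pow_right₀ hQ h)

theorem pow_one_pos (hQ : 1 < Q) (a : ℕ) : 0 < Q ^ (a + 1) - 1 :=
  sub_pos.2 (one_lt_pow₀ hQ (Nat.succ_ne_zero a))

theorem val_pos (hQ : 1 < Q) (hs : 0 < s) {m : ℕ} : ∀ {i : ℕ}, i ≤ m → 0 < PP Q s m 0 i := by
  intro i
  induction i with
  | zero => intro _; rw [PP_zero]; exact one_pos
  | succ i ih =>
    intro hi
    have h1 := PP_val Q s m i
    have h2 := ih (by omega)
    have h3 := mul_pos (mul_pos hs (pow_sub_pos hQ (show i < m by omega))) h2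
    rw [← h1] at h3
    exact (pos_iff_pos_of_mul_pos h3).1 (pow_one_pos hQ i)

theorem th_lt (hQ : 1 < Q) (hs : 0 < s) {m j j' : ℕ} (h : j < j') :
    s * Q ^ (m - j') - Q ^ j' < s * Q ^ (m - j) - Q ^ j := by
  have h1 : Q ^ (m - j') ≤ Q ^ (m - j) := pow_le_pow_right₀ hQ.le (by omega)
  have h2 := pow_sub_pos hQ h
  have h3 := mul_le_mul_of_nonneg_left h1 hs.le
  linarith

theorem th_ne (hQ : 1 < Q) (hs : 0 < s) {m j j' : ℕ} (h : j ≠ j') :
    (s * Q ^ (m - j) - Q ^ j) - (s * Q ^ (m - j') - Q ^ j') ≠ 0 := by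
  rcases Nat.lt_or_gt_of_ne h with h | h
  · exact (sub_pos.2 (th_lt hQ hs h)).ne'
  · exact (sub_neg.2 (th_lt hQ hs h)).ne

/-- Christoffel-Darboux. -/
theorem cd (hQ : 1 < Q) (hs : 0 < s) {m : ℕ} {u v : ℕ → K} {t t' : K}
    (hu0 : (Q - 1) * u 1 + ((s - 1) - t) * u 0 = 0)
    (hu : ∀ i, (Q ^ (i + 2) - 1) * u (i + 2) + ((s - 1) * Q ^ (i + 1) - t) * u (i + 1) + s * (Q ^ m - Q ^ i) * u i = 0)
    (hv0 : (Q - 1) * v 1 + ((s - 1) - t') * v 0 = 0)
    (hv : ∀ i, (Q ^ (i + 2) - 1) * v (i + 2) + ((s - 1) * Q ^ (i + 1) - t') * v (i + 1) + s * (Q ^ m - Q ^ i) * v i = 0) :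
    ∀ n ≤ m, (t - t') * ∑ i ∈ range (n + 1), u i * v i / PP Q s m 0 i =
      (Q ^ (n + 1) - 1) * (u (n + 1) * v n - u n * v (n + 1)) / PP Q s m 0 n := by
  intro n
  induction n with
  | zero =>
    intro _
    rw [zero_add, range_one, sum_singleton, PP_zero, div_one, div_one, pow_one]
    linear_combination (-v 0) * hu0 + u 0 * hv0
  | succ n ih =>
    intro hn
    have h1 := ih (by omega)
    rw [sum_range_succ, mul_add, h1]
    have k1 := (val_pos hQ hs (show n ≤ m by omega)).ne'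
    have k2 := (val_pos hQ hs hn).ne'
    have h2 := PP_val Q s m n
    have h3 := hu n
    have h4 := hv n
    have h5 : (Q ^ (n + 1) - 1) * (u (n + 1) * v n - u n * v (n + 1)) / PP Q s m 0 n =
        s * (Q ^ m - Q ^ n) * (u (n + 1) * v n - u n * v (n + 1)) / PP Q s m 0 (n + 1) := by
      rw [div_eq_div_iff k1 k2]
      linear_combination (u (n + 1) * v n - u n * v (n + 1)) * h2
    rw [h5]
    field_simp
    linear_combination (-v (n + 1)) * h3 + u (n + 1) * h4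

theorem orth (hQ : 1 < Q) (hs : 0 < s) {m j j' : ℕ} (hj : j ≤ m) (hj' : j' ≤ m) (h : j ≠ j') :
    ∑ i ∈ range (m + 1), PP Q s m j i * PP Q s m j' i / PP Q s m 0 i = 0 := by
  have h1 := cd hQ hs (PP_rec_zero Q s hj) (PP_rec Q s hj) (PP_rec_zero Q s hj') (PP_rec Q s hj') m le_rfl
  rw [PP_of_lt Q s hj (Nat.lt_succ_self m), PP_of_lt Q s hj' (Nat.lt_succ_self m)] at h1
  have h2 := th_ne hQ hs (m := m) h
  rw [zero_mul, mul_zero, sub_self, mul_zero, zero_div] at h1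
  exact (mul_eq_zero.1 h1).resolve_left h2

/-- The main part of the multiplicity. -/
def gg (Q s : K) (m j : ℕ) : K :=
  ∏ i ∈ range j, s * (Q ^ (m - i) - 1) * (1 + s * Q ^ (m - (i + 1))) / ((Q ^ (i + 1) - 1) * (s + Q ^ (i + 1)))

/-- The multiplicity of the `j`-th eigenspace. -/
def ff (Q s : K) (m j : ℕ) : K := gg Q s m j * (Q ^ (2 * j) + s * Q ^ m) / (Q ^ j + s * Q ^ m)

theorem gg_succ (Q s : K) (m j : ℕ) : gg Q s m (j + 1) =
    gg Q s m j * (s * (Q ^ (m - j) - 1) * (1 + s * Q ^ (m - (j + 1))) / ((Q ^ (j + 1) - 1) * (s + Q ^ (j + 1)))) := by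
  unfold gg
  rw [prod_range_succ]

theorem gg_succ_succ (Q s : K) (m j : ℕ) : gg Q s (m + 1) (j + 1) =
    gg Q s m j * (s * (Q ^ (m + 1) - 1) * (1 + s * Q ^ m) / ((Q ^ (j + 1) - 1) * (s + Q ^ (j + 1)))) := by
  unfold gg
  rw [prod_div_distrib, prod_div_distrib, prod_range_succ', prod_range_succ (fun i => (Q ^ (i + 1) - 1) * (s + Q ^ (i + 1)))]
  simp only [Nat.add_sub_add_right, Nat.sub_zero, zero_add, Nat.add_sub_cancel]
  rw [div_mul_div_comm]

theorem gg_top (Q s : K) (m : ℕ) : gg Q s m (m + 1) = 0 := by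
  rw [gg_succ, Nat.sub_self, pow_zero, sub_self, mul_zero, zero_mul, zero_div, mul_zero]

theorem ff_top (Q s : K) (m : ℕ) : ff Q s m (m + 1) = 0 := by
  unfold ff
  rw [gg_top, zero_mul, zero_div]

theorem ff_zero (hQ : 1 < Q) (hs : 0 < s) (m : ℕ) : ff Q s m 0 = 1 := by
  have h1 : 0 < 1 + s * Q ^ m := by positivity
  unfold ff gg
  rw [range_zero, prod_empty, mul_zero, pow_zero, one_mul]
  exact div_self h1.ne'

theorem gg_pos (hQ : 1 < Q) (hs : 0 < s) {m : ℕ} : ∀ {j : ℕ}, j ≤ m → 0 < gg Q s m j := by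
  intro j hj
  have hQ0 : 0 < Q := by linarith
  unfold gg
  refine prod_pos fun i hi => ?_
  rw [mem_range] at hi
  obtain ⟨k, hk⟩ : ∃ k, m - i = k + 1 := ⟨m - i - 1, by omega⟩
  have h1 := pow_one_pos hQ k
  have h2 := pow_one_pos hQ i
  rw [hk]
  positivity

theorem ff_pos (hQ : 1 < Q) (hs : 0 < s) {m j : ℕ} (hj : j ≤ m) : 0 < ff Q s m j := by
  have hQ0 : 0 < Q := by linarith
  have h1 := gg_pos hQ hs hj
  unfold ff
  positivity

/-- The recursion of the multiplicities. -/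
theorem ff_rec (hQ : 1 < Q) (hs : 0 < s) {m j : ℕ} (hj : j ≤ m) :
    ff Q s (m + 1) (j + 1) = (1 + s * Q ^ m) *
      (ff Q s m (j + 1) * (Q ^ (2 * (j + 1)) / (Q ^ (2 * (j + 1)) + s * Q ^ m)) +
        ff Q s m j * (s * Q ^ m / (Q ^ (2 * j) + s * Q ^ m))) := by
  have hQ0 : 0 < Q := by linarith
  obtain ⟨k, rfl⟩ : ∃ k, m = j + k := ⟨m - j, by omega⟩
  have e1 : 0 < Q ^ (2 * (j + 1)) + s * Q ^ (j + k) := by positivity
  have e2 : 0 < Q ^ (2 * j) + s * Q ^ (j + k) := by positivity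
  have e3 : 0 < Q ^ (j + 1) + s * Q ^ (j + k) := by positivity
  have e4 : 0 < Q ^ j + s * Q ^ (j + k) := by positivity
  have e5 : 0 < s + Q ^ (j + 1) := by positivity
  have e6 := pow_one_pos hQ j
  have e7 : 0 < Q ^ (j + 1) + s * Q ^ (j + k + 1) := by positivity
  -- the first summand
  have f1 : ff Q s (j + k) (j + 1) * (Q ^ (2 * (j + 1)) / (Q ^ (2 * (j + 1)) + s * Q ^ (j + k))) =
      gg Q s (j + k) j * (s * (Q ^ (j + k + 1) - Q ^ (j + 1)) / ((Q ^ (j + 1) - 1) * (s + Q ^ (j + 1)))) := by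
    unfold ff
    rw [gg_succ]
    rcases Nat.eq_zero_or_pos k with rfl | hk
    · rw [Nat.add_zero, Nat.sub_self, pow_zero, sub_self, sub_self]
      simp
    · obtain ⟨l, rfl⟩ : ∃ l, k = l + 1 := ⟨k - 1, by omega⟩
      rw [show j + (l + 1) - j = l + 1 by omega, show j + (l + 1) - (j + 1) = l by omega]
      field_simp
      ring
  have f2 : ff Q s (j + k) j * (s * Q ^ (j + k) / (Q ^ (2 * j) + s * Q ^ (j + k))) =
      gg Q s (j + k) j * (s * Q ^ (j + k) / (Q ^ j + s * Q ^ (j + k))) := by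
    unfold ff
    field_simp
  have f3 : ff Q s (j + k + 1) (j + 1) = gg Q s (j + k) j *
      (s * (Q ^ (j + k + 1) - 1) * (1 + s * Q ^ (j + k)) / ((Q ^ (j + 1) - 1) * (s + Q ^ (j + 1)))) *
      ((Q ^ (2 * (j + 1)) + s * Q ^ (j + k + 1)) / (Q ^ (j + 1) + s * Q ^ (j + k + 1))) := by
    unfold ff
    rw [gg_succ_succ]
    ring
  rw [f1, f2, f3]
  have f4 : (Q ^ (2 * (j + 1)) + s * Q ^ (j + k + 1)) / (Q ^ (j + 1) + s * Q ^ (j + k + 1)) =
      (Q ^ (2 * j + 1) + s * Q ^ (j + k)) / (Q ^ j + s * Q ^ (j + k)) := by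
    rw [div_eq_div_iff e7.ne' e4.ne']
    ring
  rw [f4]
  field_simp
  ring

/-- **The multiplicities**: `∑ j, f_j P_i(j) = N δ_{i,0}`. -/
theorem sum_ff (hQ : 1 < Q) (hs : 0 < s) (m : ℕ) :
    ∑ j ∈ range (m + 1), C (ff Q s m j) * FF Q s m j = C (∏ l ∈ range m, (1 + s * Q ^ l)) := by
  have hQ0 : 0 < Q := by linarith
  induction m with
  | zero =>
    rw [zero_add, range_one, sum_singleton, ff_zero hQ hs]
    unfold FF
    simp
  | succ m ih =>
    have e1 : ∀ j ∈ range (m + 1), C (1 + s * Q ^ m) * (C (ff Q s m j) * FF Q s m j) =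
        C ((1 + s * Q ^ m) * (ff Q s m j * (Q ^ (2 * j) / (Q ^ (2 * j) + s * Q ^ m)))) * FF Q s (m + 1) j +
        C ((1 + s * Q ^ m) * (ff Q s m j * (s * Q ^ m / (Q ^ (2 * j) + s * Q ^ m)))) * FF Q s (m + 1) (j + 1) := by
      intro j hj
      rw [mem_range] at hj
      have k1 : FF Q s (m + 1) j = (1 + C (s * Q ^ (m - j)) * X) * FF Q s m j := by
        unfold FF
        rw [show m + 1 - j = (m - j) + 1 by omega, prod_range_succ]
        ring
      have k2 : FF Q s (m + 1) (j + 1) = (1 - C (Q ^ j) * X) * FF Q s m j := by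
        unfold FF
        rw [show m + 1 - (j + 1) = m - j by omega, prod_range_succ]
        ring
      have e2 : 0 < Q ^ (2 * j) + s * Q ^ m := by positivity
      set a := (1 + s * Q ^ m) * (ff Q s m j * (Q ^ (2 * j) / (Q ^ (2 * j) + s * Q ^ m))) with ha
      set b := (1 + s * Q ^ m) * (ff Q s m j * (s * Q ^ m / (Q ^ (2 * j) + s * Q ^ m))) with hb
      have k3 : a + b = (1 + s * Q ^ m) * ff Q s m j := by
        rw [ha, hb]
        field_simp
      have k4 : a * (s * Q ^ (m - j)) = b * Q ^ j := by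
        have k5 : Q ^ m = Q ^ (m - j) * Q ^ j := by rw [← pow_add, Nat.sub_add_cancel (by omega)]
        rw [ha, hb, two_mul, pow_add, k5]
        ring
      rw [k1, k2, ← mul_assoc, ← C_mul, ← k3]
      have k6 : C a * (C (s * Q ^ (m - j)) * X) - C b * (C (Q ^ j) * X) = (0 : K[X]) := by
        rw [← mul_assoc, ← mul_assoc, ← C_mul, ← C_mul, k4, sub_self]
      rw [C_add]
      linear_combination (-FF Q s m j) * k6
    have e3 : ff Q s (m + 1) 0 = (1 + s * Q ^ m) * (ff Q s m 0 * (Q ^ (2 * 0) / (Q ^ (2 * 0) + s * Q ^ m))) := by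
      rw [ff_zero hQ hs, ff_zero hQ hs, mul_zero, pow_zero, one_mul]
      have : 0 < 1 + s * Q ^ m := by positivity
      field_simp
    rw [sum_range_succ', e3]
    have e4 : ∀ j ∈ range (m + 1), C (ff Q s (m + 1) (j + 1)) * FF Q s (m + 1) (j + 1) =
        C ((1 + s * Q ^ m) * (ff Q s m (j + 1) * (Q ^ (2 * (j + 1)) / (Q ^ (2 * (j + 1)) + s * Q ^ m)))) *
          FF Q s (m + 1) (j + 1) +
        C ((1 + s * Q ^ m) * (ff Q s m j * (s * Q ^ m / (Q ^ (2 * j) + s * Q ^ m)))) * FF Q s (m + 1) (j + 1) := by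
      intro j hj
      rw [mem_range] at hj
      rw [ff_rec hQ hs (show j ≤ m by omega), mul_add, C_add, add_mul]
    rw [sum_congr rfl e4, sum_add_distrib]
    have e5 := sum_range_succ' (fun j => C ((1 + s * Q ^ m) *
      (ff Q s m j * (Q ^ (2 * j) / (Q ^ (2 * j) + s * Q ^ m)))) * FF Q s (m + 1) j) (m + 1)
    have e6 := sum_range_succ (fun j => C ((1 + s * Q ^ m) *
      (ff Q s m j * (Q ^ (2 * j) / (Q ^ (2 * j) + s * Q ^ m)))) * FF Q s (m + 1) j) (m + 1)
    rw [ff_top, zero_mul, mul_zero, C_0, zero_mul, add_zero] at e6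
    have e7 := sum_congr rfl e1
    rw [← mul_sum, ih, sum_add_distrib, ← e6, e5] at e7
    have e8 : (C (∏ l ∈ range (m + 1), (1 + s * Q ^ l)) : K[X]) =
        C (1 + s * Q ^ m) * C (∏ l ∈ range m, (1 + s * Q ^ l)) := by
      rw [prod_range_succ, mul_comm, C_mul]
    rw [e8, e7]
    ring

/-- **The norm of the spherical functions.** -/
theorem norm_eq (hQ : 1 < Q) (hs : 0 < s) {m j : ℕ} (hj : j ≤ m) :
    ff Q s m j * ∑ i ∈ range (m + 1), PP Q s m j i ^ 2 / PP Q s m 0 i = ∏ l ∈ range m, (1 + s * Q ^ l) := by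
  have h1 : ∀ i, ∑ j' ∈ range (m + 1), ff Q s m j' * PP Q s m j' i =
      if i = 0 then ∏ l ∈ range m, (1 + s * Q ^ l) else 0 := by
    intro i
    have h2 := congrArg (fun p => p.coeff i) (sum_ff hQ hs m)
    simp only [finsetSum_coeff, coeff_C_mul, coeff_C] at h2
    exact h2
  have h3 : ∑ i ∈ range (m + 1), (∑ j' ∈ range (m + 1), ff Q s m j' * PP Q s m j' i) *
      (PP Q s m j i / PP Q s m 0 i) = ∏ l ∈ range m, (1 + s * Q ^ l) := by
    rw [sum_eq_single 0]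
    · rw [h1, if_pos rfl, PP_zero, PP_zero, div_one, mul_one]
    · intro i _ hi
      rw [h1, if_neg hi, zero_mul]
    · intro h
      exact absurd (mem_range.2 (Nat.succ_pos m)) h
  rw [← h3]
  simp only [sum_mul]
  rw [sum_comm, mul_sum]
  rw [sum_eq_single j (f := fun j' => ∑ i ∈ range (m + 1), ff Q s m j' * PP Q s m j' i * (PP Q s m j i / PP Q s m 0 i))]
  · refine sum_congr rfl fun i _ => ?_
    ring
  · intro j' hj' hne
    rw [mem_range] at hj'
    have h4 := orth hQ hs (show j' ≤ m by omega) hj hne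
    rw [← mul_zero (ff Q s m j'), ← h4, mul_sum]
    refine sum_congr rfl fun i _ => ?_
    ring
  · intro h
    exact absurd (mem_range.2 (Nat.lt_succ_of_le hj)) h

end ord

end Cfsg.Agent.H722.DPol

namespace Cfsg.Agent.H722.DPol

open Cfsg Cfsg.Agent.Characters.Core Cfsg.Agent.H816.IMEig Finset
open scoped BigOperators

universe u v

/-- A distance transitive action of diameter `m` with the intersection numbers `up`, `dn`. -/
structure DR (G : Type u) [Group G] (X : Type v) [MulAction G X] (d : X → X → ℕ) (m : ℕ) (up dn : ℕ → ℕ) : Prop where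
  inv : ∀ (g : G) (x y : X), d (g • x) (g • y) = d x y
  tr : ∀ x y x' y' : X, d x y = d x' y' → ∃ g : G, g • x = x' ∧ g • y = y'
  diag : ∀ x y : X, d x y = 0 ↔ x = y
  symm : ∀ x y : X, d x y = d y x
  le : ∀ x y : X, d x y ≤ m
  near : ∀ x y z : X, d x z = 1 → d z y ≤ d x y + 1
  cup : ∀ x y : X, Nat.card {z // d x z = 1 ∧ d z y = d x y + 1} = up (d x y)
  cdn : ∀ x y : X, Nat.card {z // d x z = 1 ∧ d z y + 1 = d x y} = dn (d x y)

variable {G : Type u} [Group G] {X : Type v} [MulAction G X] {d : X → X → ℕ} {m : ℕ} {up dn : ℕ → ℕ}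

namespace DR

/-- The colour. -/
def col (h : DR G X d m up dn) (x y : X) : Fin (m + 1) := ⟨d x y, Nat.lt_succ_of_le (h.le x y)⟩

theorem toCol (h : DR G X d m up dn) : Col G X (Fin (m + 1)) h.col 0 where
  inv g x y := Fin.ext (h.inv g x y)
  tr x y x' y' e := h.tr x y x' y' (congrArg Fin.val e)
  diag x y := by
    rw [← h.diag x y]
    exact ⟨fun e => congrArg Fin.val e, fun e => Fin.ext e⟩
  symm x y := Fin.ext (h.symm x y)

theorem near' (h : DR G X d m up dn) (x y z : X) (hz : d x z = 1) : d x y ≤ d z y + 1 :=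
  h.near z y x (by rw [h.symm, hz])

/-- Points at every distance. -/
theorem exists_dist [Nonempty X] (hup : ∀ i < m, 0 < up i) (h : DR G X d m up dn) (y : X) :
    ∀ i ≤ m, ∃ x, d x y = i := by
  intro i
  induction i with
  | zero => intro _; exact ⟨y, (h.diag y y).2 rfl⟩
  | succ i ih =>
    intro hi
    obtain ⟨x, hx⟩ := ih (by omega)
    have h1 := h.cup x y
    rw [hx] at h1
    have h3 : Nat.card {z // d x z = 1 ∧ d z y = i + 1} ≠ 0 := by
      rw [h1]; exact (hup i (by omega)).ne'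
    obtain ⟨⟨z, hz⟩⟩ : Nonempty {z // d x z = 1 ∧ d z y = i + 1} := by
      by_contra hcon
      rw [not_nonempty_iff] at hcon
      exact h3 Nat.card_of_isEmpty
    exact ⟨z, hz.2⟩

section fin

variable [Finite X]

theorem up_top [Nonempty X] (hup : ∀ i < m, 0 < up i) (h : DR G X d m up dn) : up m = 0 := by
  obtain ⟨y⟩ : Nonempty X := inferInstance
  obtain ⟨x, hx⟩ := h.exists_dist hup y m le_rfl
  have h1 := h.cup x y
  rw [hx] at h1
  rw [← h1]
  have : IsEmpty {z // d x z = 1 ∧ d z y = m + 1} := ⟨fun z => by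
    have := h.le z.1 y
    have := z.2.2
    omega⟩
  exact Nat.card_of_isEmpty

theorem dn_zero [Nonempty X] (h : DR G X d m up dn) : dn 0 = 0 := by
  obtain ⟨y⟩ : Nonempty X := inferInstance
  have h1 := h.cdn y y
  rw [(h.diag y y).2 rfl] at h1
  rw [← h1]
  have : IsEmpty {z // d y z = 1 ∧ d z y + 1 = 0} := ⟨fun z => by
    have := z.2.2
    omega⟩
  exact Nat.card_of_isEmpty

theorem exists_one [Nonempty X] (hup : ∀ i < m, 0 < up i) (hm : 1 ≤ m) (h : DR G X d m up dn) :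
    ∃ x₀ z₀ : X, d x₀ z₀ = 1 :=
  ⟨_, _, (h.exists_dist hup (Classical.arbitrary X) 1 hm).choose_spec⟩

theorem tt_symm (h : DR G X d m up dn) (x₀ z₀ : X) (u w : Fin (m + 1)) :
    Col.tt h.col x₀ z₀ u w = Col.tt h.col x₀ z₀ w u := by
  rw [h.toCol.tt_eq (h.toCol.symm x₀ z₀) u w]
  exact Nat.card_congr ⟨fun y => ⟨y.1, y.2.2, y.2.1⟩, fun y => ⟨y.1, y.2.2, y.2.1⟩, fun _ => rfl, fun _ => rfl⟩

/-- The neighbours at a given distance. -/
theorem nn_up (h : DR G X d m up dn) {x₀ z₀ : X} (h0 : d x₀ z₀ = 1) (x y : X) (w : Fin (m + 1))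
    (hw : (w : ℕ) = d x y + 1) :
    Col.nn h.col (h.col x₀ z₀) x y w = up (d x y) := by
  rw [← h.cup x y]
  refine Nat.card_congr (Equiv.subtypeEquivRight fun z => ?_)
  unfold col
  rw [Fin.ext_iff, Fin.ext_iff]
  simp only [h0, hw]

theorem nn_down (h : DR G X d m up dn) {x₀ z₀ : X} (h0 : d x₀ z₀ = 1) (x y : X) (w : Fin (m + 1))
    (hw : (w : ℕ) + 1 = d x y) :
    Col.nn h.col (h.col x₀ z₀) x y w = dn (d x y) := by
  rw [← h.cdn x y]
  refine Nat.card_congr (Equiv.subtypeEquivRight fun z => ?_)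
  unfold col
  rw [Fin.ext_iff, Fin.ext_iff]
  simp only [h0]
  omega

theorem nn_far (h : DR G X d m up dn) {x₀ z₀ : X} (h0 : d x₀ z₀ = 1) (x y : X) (w : Fin (m + 1))
    (hw : (w : ℕ) ≠ d x y + 1) (hw' : (w : ℕ) + 1 ≠ d x y) (hw'' : (w : ℕ) ≠ d x y) :
    Col.nn h.col (h.col x₀ z₀) x y w = 0 := by
  unfold Col.nn
  have : IsEmpty {z // h.col x z = h.col x₀ z₀ ∧ h.col z y = w} := by
    refine ⟨fun z => ?_⟩
    obtain ⟨z, hz1, hz2⟩ := z
    have e1 : d x z = 1 := by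
      have := congrArg Fin.val hz1
      simpa [col, h0] using this
    have e2 : d z y = w := congrArg Fin.val hz2
    have e3 := h.near x y z e1
    have e4 := h.near' x y z e1
    omega
  exact Nat.card_of_isEmpty

theorem sum_nn (h : DR G X d m up dn) {x₀ z₀ : X} (h0 : d x₀ z₀ = 1) (x y : X) :
    ∑ w, Col.nn h.col (h.col x₀ z₀) x y w = up 0 := by
  have e : {z // h.col x z = h.col x₀ z₀} ≃ Σ w : Fin (m + 1), {z // h.col x z = h.col x₀ z₀ ∧ h.col z y = w} :=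
    ⟨fun z => ⟨h.col z.1 y, z.1, z.2, rfl⟩, fun z => ⟨z.2.1, z.2.2.1⟩, fun _ => rfl, fun z => by
      obtain ⟨w, z, hz1, rfl⟩ := z
      rfl⟩
  have h1 := Nat.card_congr e
  rw [Nat.card_sigma] at h1
  have h2 := h.cup x x
  rw [(h.diag x x).2 rfl, zero_add] at h2
  rw [← h2]
  unfold Col.nn
  rw [← h1]
  refine Nat.card_congr (Equiv.subtypeEquivRight fun z => ?_)
  unfold col
  rw [Fin.ext_iff]
  simp only [h0]
  constructor
  · intro hz
    exact ⟨hz, by rw [h.symm, hz]⟩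
  · intro hz
    exact hz.1

/-- Extension of a function on the colours by zero. -/
noncomputable def ext (φ : Fin (m + 1) → ℂ) (i : ℕ) : ℂ := if hi : i < m + 1 then φ ⟨i, hi⟩ else 0

theorem ext_val (φ : Fin (m + 1) → ℂ) (u : Fin (m + 1)) : ext φ u = φ u := by
  unfold ext
  rw [dif_pos u.2]

/-- The action of the adjacency matrix on functions of the distance. -/
theorem sum_nn_mul [Nonempty X] (hup : ∀ i < m, 0 < up i) (h : DR G X d m up dn) {x₀ z₀ : X} (h0 : d x₀ z₀ = 1)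
    (x y : X) (φ : Fin (m + 1) → ℂ) :
    ∑ w, (Col.nn h.col (h.col x₀ z₀) x y w : ℂ) * φ w =
      ((up (d x y) : ℕ) : ℂ) * (ext φ (d x y + 1) - ext φ (d x y)) +
      ((dn (d x y) : ℕ) : ℂ) * (ext φ (d x y - 1) - ext φ (d x y)) + ((up 0 : ℕ) : ℂ) * ext φ (d x y) := by
  have h1 : ∀ w : Fin (m + 1), (Col.nn h.col (h.col x₀ z₀) x y w : ℂ) * φ w =
      (if (w : ℕ) = d x y + 1 then ((up (d x y) : ℕ) : ℂ) * (ext φ (d x y + 1) - ext φ (d x y)) else 0) +
      (if (w : ℕ) + 1 = d x y then ((dn (d x y) : ℕ) : ℂ) * (ext φ (d x y - 1) - ext φ (d x y)) else 0) +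
      (Col.nn h.col (h.col x₀ z₀) x y w : ℂ) * ext φ (d x y) := by
    intro w
    by_cases hw : (w : ℕ) = d x y + 1
    · rw [if_pos hw, if_neg (by omega), h.nn_up h0 x y w hw, ← hw, ext_val]
      ring
    · rw [if_neg hw]
      by_cases hw' : (w : ℕ) + 1 = d x y
      · rw [if_pos hw', h.nn_down h0 x y w hw', ← hw', Nat.add_sub_cancel, ext_val]
        ring
      · rw [if_neg hw']
        by_cases hw'' : (w : ℕ) = d x y
        · rw [← hw'', ext_val]
          ring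
        · rw [h.nn_far h0 x y w hw hw' hw'']
          simp
  rw [sum_congr rfl fun w _ => h1 w, sum_add_distrib, sum_add_distrib, ← sum_mul, ← Nat.cast_sum, h.sum_nn h0]
  congr 1
  congr 1
  · by_cases hd : d x y + 1 < m + 1
    · rw [sum_eq_single (⟨d x y + 1, hd⟩ : Fin (m + 1))]
      · rw [if_pos rfl]
      · intro w _ hw
        rw [if_neg (fun e => hw (Fin.ext e))]
      · intro hh; exact absurd (mem_univ _) hh
    · have e : d x y = m := by have := h.le x y; omega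
      rw [e, h.up_top hup]
      simp
  · by_cases hd : d x y = 0
    · rw [hd, h.dn_zero]
      simp
    · have hlt : d x y - 1 < m + 1 := by have := h.le x y; omega
      rw [sum_eq_single (⟨d x y - 1, hlt⟩ : Fin (m + 1))]
      · rw [if_pos (by show d x y - 1 + 1 = d x y; omega)]
      · intro w _ hw
        rw [if_neg]
        intro e
        apply hw
        apply Fin.ext
        show (w : ℕ) = d x y - 1
        omega
      · intro hh; exact absurd (mem_univ _) hh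

/-- The valencies. -/
theorem kk_rec [Nonempty X] (hup : ∀ i < m, 0 < up i) (h : DR G X d m up dn) (x₁ : X) {i : ℕ} (hi : i + 1 ≤ m) :
    dn (i + 1) * (Col.kk h.col x₁ ⟨i + 1, Nat.lt_succ_of_le hi⟩) = up i * (Col.kk h.col x₁ ⟨i, by omega⟩) := by
  obtain ⟨x₀, z₀, h0⟩ := h.exists_one hup (by omega)
  obtain ⟨x, hx⟩ := h.exists_dist hup x₀ i (by omega)
  obtain ⟨x', hx'⟩ := h.exists_dist hup x₀ (i + 1) hi
  have e1 := h.toCol.nn_mul (x₀ := x₀) (z₀ := z₀) x x₀ ⟨i + 1, Nat.lt_succ_of_le hi⟩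
  have e2 := h.toCol.nn_mul (x₀ := x₀) (z₀ := z₀) x' x₀ ⟨i, by omega⟩
  rw [h.nn_up h0 x x₀ _ (by show i + 1 = d x x₀ + 1; rw [hx])] at e1
  rw [h.nn_down h0 x' x₀ _ (by show i + 1 = d x' x₀; rw [hx'])] at e2
  have c1 : h.col x x₀ = ⟨i, by omega⟩ := Fin.ext hx
  have c2 : h.col x' x₀ = ⟨i + 1, Nat.lt_succ_of_le hi⟩ := Fin.ext hx'
  rw [c1, hx] at e1
  rw [c2, hx'] at e2
  rw [h.toCol.kk_eq x₁ x₀, h.toCol.kk_eq x₁ x₀, e1, e2, h.tt_symm]

/-- The valencies from a solution of the recursion. -/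
theorem kk_eq [Nonempty X] (hup : ∀ i < m, 0 < up i) (hdn : ∀ i, 1 ≤ i → i ≤ m → 0 < dn i) (h : DR G X d m up dn)
    {k : ℕ → ℚ} (hk0 : k 0 = 1) (hk : ∀ i < m, (dn (i + 1) : ℚ) * k (i + 1) = up i * k i) (x₁ : X) :
    ∀ u : Fin (m + 1), (Col.kk h.col x₁ u : ℚ) = k u := by
  have key : ∀ i (hi : i ≤ m), (Col.kk h.col x₁ ⟨i, Nat.lt_succ_of_le hi⟩ : ℚ) = k i := by
    intro i
    induction i with
    | zero =>
      intro hi
      rw [hk0]
      have : Unique {y // h.col x₁ y = ⟨0, Nat.lt_succ_of_le hi⟩} :=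
        ⟨⟨⟨x₁, (h.toCol.diag x₁ x₁).2 rfl⟩⟩, fun y => Subtype.ext ((h.toCol.diag x₁ y.1).1 y.2).symm⟩
      unfold Col.kk
      rw [Nat.card_unique]
      norm_num
    | succ i ih =>
      intro hi
      have h1 := h.kk_rec hup x₁ hi
      have h2 := ih (by omega)
      have h3 := hk i (by omega)
      have h4 : (dn (i + 1) : ℚ) ≠ 0 := by exact_mod_cast (hdn (i + 1) (by omega) hi).ne'
      have h6 : ((dn (i + 1) * (Col.kk h.col x₁ ⟨i + 1, Nat.lt_succ_of_le hi⟩) : ℕ) : ℚ) =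
          ((up i * (Col.kk h.col x₁ ⟨i, by omega⟩) : ℕ) : ℚ) := by rw [h1]
      push_cast at h6
      rw [h2, ← h3] at h6
      exact mul_left_cancel₀ h4 h6
  intro u
  exact key u (Nat.le_of_lt_succ u.2)

/-- The number of points. -/
theorem card_eq [Nonempty X] (hup : ∀ i < m, 0 < up i) (hdn : ∀ i, 1 ≤ i → i ≤ m → 0 < dn i) (h : DR G X d m up dn)
    {k : ℕ → ℚ} (hk0 : k 0 = 1) (hk : ∀ i < m, (dn (i + 1) : ℚ) * k (i + 1) = up i * k i) :
    (Nat.card X : ℚ) = ∑ i ∈ range (m + 1), k i := by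
  obtain ⟨x₁⟩ : Nonempty X := inferInstance
  have e : X ≃ Σ w : Fin (m + 1), {y // h.col x₁ y = w} :=
    ⟨fun y => ⟨h.col x₁ y, y, rfl⟩, fun y => y.2.1, fun _ => rfl, fun y => by
      obtain ⟨w, y, rfl⟩ := y
      rfl⟩
  rw [← Fin.sum_univ_eq_sum_range, Nat.card_congr e, Nat.card_sigma, Nat.cast_sum]
  exact sum_congr rfl fun u _ => h.kk_eq hup hdn hk0 hk x₁ u

/-- The recursion satisfied by the spherical functions. -/
def Rec {K : Type*} [Field K] (m : ℕ) (up dn : ℕ → ℕ) (θ : K) (Φ : ℕ → K) : Prop :=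
  ∀ i ≤ m, (up i : K) * (Φ (i + 1) - Φ i) + (dn i : K) * (Φ (i - 1) - Φ i) + (up 0 : K) * Φ i = θ * Φ i

/-- The eigenvalue equation in terms of the recursion. -/
theorem eig_iff [Nonempty X] (hup : ∀ i < m, 0 < up i) (h : DR G X d m up dn) {x₀ z₀ : X} (h0 : d x₀ z₀ = 1)
    (θ : ℂ) (φ : Fin (m + 1) → ℂ) :
    (∀ u, ∑ w, ((∑ w', Col.tt h.col x₀ z₀ (h.col x₀ z₀) w' : ℕ) : ℂ) * (Col.tt h.col x₀ z₀ u w : ℂ) * φ w =
      θ * ((∑ w, Col.tt h.col x₀ z₀ u w : ℕ) : ℂ) * φ u) ↔ Rec m up dn θ (ext φ) := by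
  have hk : ∀ u, ∑ w, Col.tt h.col x₀ z₀ u w = Col.kk h.col x₀ u := fun u => (Col.kk_eq_sum x₀ z₀ u).symm
  simp only [hk]
  have key : ∀ x : X, ∑ w, ((Col.kk h.col x₀ (h.col x₀ z₀) : ℕ) : ℂ) * (Col.tt h.col x₀ z₀ (h.col x x₀) w : ℂ) * φ w =
      (Col.kk h.col x₀ (h.col x x₀) : ℂ) *
      (((up (d x x₀) : ℕ) : ℂ) * (ext φ (d x x₀ + 1) - ext φ (d x x₀)) +
      ((dn (d x x₀) : ℕ) : ℂ) * (ext φ (d x x₀ - 1) - ext φ (d x x₀)) + ((up 0 : ℕ) : ℂ) * ext φ (d x x₀)) := by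
    intro x
    rw [← h.sum_nn_mul hup h0 x x₀ φ, mul_sum]
    refine sum_congr rfl fun w _ => ?_
    have e1 := h.toCol.nn_mul (x₀ := x₀) (z₀ := z₀) x x₀ w
    have e2 : ((Col.nn h.col (h.col x₀ z₀) x x₀ w * Col.kk h.col x₀ (h.col x x₀) : ℕ) : ℂ) =
      ((Col.kk h.col x₀ (h.col x₀ z₀) * Col.tt h.col x₀ z₀ (h.col x x₀) w : ℕ) : ℂ) := by rw [e1]
    push_cast at e2
    rw [← e2]
    ring
  constructor
  · intro hh i hi
    obtain ⟨x, hx⟩ := h.exists_dist hup x₀ i hi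
    have h1 := hh (h.col x x₀)
    rw [key x] at h1
    have h2 : (Col.kk h.col x₀ (h.col x x₀) : ℂ) ≠ 0 := by
      exact_mod_cast (h.toCol.kk_pos x₀ x x₀).ne'
    have h3 : φ (h.col x x₀) = ext φ (d x x₀) := (ext_val φ (h.col x x₀)).symm
    rw [h3, hx] at h1
    apply mul_left_cancel₀ h2
    rw [h1]
    ring
  · intro hR u
    obtain ⟨x, hx⟩ := h.exists_dist hup x₀ u (Nat.le_of_lt_succ u.2)
    have hu : h.col x x₀ = u := Fin.ext hx
    have h1 := key x
    rw [hu] at h1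
    rw [h1, hx, hR u (Nat.le_of_lt_succ u.2), ext_val]
    ring

/-- The recursion determines the function. -/
theorem Rec.uniq (hup : ∀ i < m, 0 < up i) {θ : ℂ} {Φ Ψ : ℕ → ℂ} (h1 : Rec m up dn θ Φ) (h2 : Rec m up dn θ Ψ)
    (h3 : Ψ 0 = 1) : ∀ i ≤ m, Φ i = Φ 0 * Ψ i := by
  intro i
  induction i using Nat.strong_induction_on with
  | _ i ih =>
    intro hi
    rcases Nat.eq_zero_or_pos i with rfl | hi0
    · rw [h3, mul_one]
    · obtain ⟨k, rfl⟩ : ∃ k, i = k + 1 := ⟨i - 1, by omega⟩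
      have e1 := h1 k (by omega)
      have e2 := h2 k (by omega)
      have e3 := ih k (by omega) (by omega)
      have e4 := ih (k - 1) (by omega) (by omega)
      have e5 : ((up k : ℕ) : ℂ) ≠ 0 := by exact_mod_cast (hup k (by omega)).ne'
      apply mul_left_cancel₀ e5
      rw [e3, e4] at e1
      linear_combination e1 - (Φ 0) * e2

/-- **The character of a spherical function** of a distance transitive action. -/
theorem exists_char [Finite G] [Fintype X] [Nonempty X] (hm : 1 ≤ m) (hup : ∀ i < m, 0 < up i)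
    (hdn : ∀ i, 1 ≤ i → i ≤ m → 0 < dn i) (h : DR G X d m up dn)
    {k : ℕ → ℚ} (hk0 : k 0 = 1) (hk : ∀ i < m, (dn (i + 1) : ℚ) * k (i + 1) = up i * k i)
    {θ : ℚ} {ω : ℕ → ℚ} (hω0 : ω 0 = 1) (hω : Rec m up dn θ ω)
    {f : ℚ} (hf : f * ∑ i ∈ range (m + 1), k i * ω i ^ 2 = ∑ i ∈ range (m + 1), k i) :
    ∃ χ : G → ℂ, IsIrrCharacter G χ ∧ χ 1 = (f : ℂ) ∧
      ∀ g : G, χ g = (f : ℂ) / (Nat.card X : ℂ) * ∑ x, ((ω (d x (g • x)) : ℚ) : ℂ) := by
  classical
  obtain ⟨x₀, z₀, h0⟩ := h.exists_one hup hm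
  set ω' : Fin (m + 1) → ℂ := fun u => ((ω u : ℚ) : ℂ) with hω'
  have hext : ∀ i ≤ m, ext ω' i = ((ω i : ℚ) : ℂ) := fun i hi => by
    unfold ext
    rw [dif_pos (Nat.lt_succ_of_le hi)]
  have hR : Rec m up dn (θ : ℂ) (ext ω') := by
    intro i hi
    have h1 := hω i hi
    have h2 := congrArg (fun r : ℚ => (r : ℂ)) h1
    rw [hext i hi, hext (i - 1) (by omega)]
    rcases Nat.lt_or_ge i m with him | him
    · rw [hext (i + 1) him]
      push_cast at h2
      exact h2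
    · have : i = m := by omega
      subst this
      rw [h.up_top hup] at h2 ⊢
      push_cast at h2 ⊢
      rw [zero_mul] at h2 ⊢
      exact h2
  have hE : Col.Eig (h.col x₀ z₀) 0 (Col.tt h.col x₀ z₀) (θ : ℂ) ω' := by
    refine ⟨?_, (h.eig_iff hup h0 _ _).2 hR, fun φ hφ u => ?_⟩
    · show ((ω ((0 : Fin (m + 1)) : ℕ) : ℚ) : ℂ) = 1
      rw [Fin.val_zero, hω0, Rat.cast_one]
    · have h1 := (h.eig_iff hup h0 _ _).1 hφ
      have h2 := Rec.uniq hup h1 hR (by rw [hext 0 (Nat.zero_le m), hω0, Rat.cast_one]) u (Nat.le_of_lt_succ u.2)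
      rw [ext_val, ext_val] at h2
      rw [h2]
      congr 1
  have hcard := h.card_eq hup hdn hk0 hk
  have hN : ((f : ℚ) : ℂ) * ∑ u, ((∑ w, Col.tt h.col x₀ z₀ u w : ℕ) : ℂ) * ω' u ^ 2 = (Nat.card X : ℂ) := by
    have h2 : ∀ u : Fin (m + 1), ((∑ w, Col.tt h.col x₀ z₀ u w : ℕ) : ℂ) * ω' u ^ 2 =
        ((k u * ω u ^ 2 : ℚ) : ℂ) := by
      intro u
      rw [← Col.kk_eq_sum x₀ z₀ u]
      have e1 := h.kk_eq hup hdn hk0 hk x₀ u
      rw [← Rat.cast_natCast, e1, hω']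
      push_cast
      rfl
    rw [sum_congr rfl fun u _ => h2 u, ← Rat.cast_sum, ← Rat.cast_mul,
      Fin.sum_univ_eq_sum_range (fun i => k i * ω i ^ 2) (m + 1), hf, ← hcard, Rat.cast_natCast]
  have hX : (Nat.card X : ℂ) ≠ 0 := by exact_mod_cast (Nat.card_pos (α := X)).ne'
  have hS : Col.SS (Col.tt h.col x₀ z₀) ω' ≠ 0 := by
    intro h1
    unfold Col.SS at h1
    rw [h1, mul_zero] at hN
    exact hX hN.symm
  have h1 := h.toCol.finrank_mul (fun _ _ => rfl) hE hS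
  rw [← Nat.card_eq_fintype_card] at h1
  have hff : ((Module.finrank ℂ (Col.WW h.col ω') : ℕ) : ℂ) = (f : ℂ) :=
    mul_right_cancel₀ hS (h1.trans hN.symm)
  obtain ⟨χ, k1, k2, k3⟩ := H693.Sch.exists_values (G := G) h.toCol (fun _ _ => rfl) hE h1
  refine ⟨χ, k1, by rw [k2, hff], fun g => ?_⟩
  rw [k3, hff]
  rfl

end fin

end DR

end Cfsg.Agent.H722.DPol

namespace Cfsg.Agent.H722.DPol

open Cfsg Cfsg.Agent.Characters.Core Cfsg.Agent.H816.IMEig Finset
open scoped BigOperators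

universe u v

/-- The number `[n] = 1 + Q + ... + Q^(n-1)`. -/
def br (Q n : ℕ) : ℕ := ∑ i ∈ range n, Q ^ i

theorem br_mul {K : Type*} [CommRing K] (Q n : ℕ) : ((Q : K) - 1) * (br Q n : K) = (Q : K) ^ n - 1 := by
  unfold br
  push_cast
  rw [mul_comm]
  exact geom_sum_mul _ _

theorem br_pos (Q : ℕ) {n : ℕ} (hn : 0 < n) : 0 < br Q n := by
  unfold br
  exact lt_of_lt_of_le (by norm_num) (single_le_sum (f := fun i => Q ^ i) (fun _ _ => Nat.zero_le _) (mem_range.2 hn))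

/-- A distance transitive action with the parameters of a dual polar space of rank `m`. -/
abbrev DP (G : Type u) [Group G] (X : Type v) [MulAction G X] (d : X → X → ℕ) (m Q s : ℕ) : Prop :=
  DR G X d m (fun i => s * Q ^ i * br Q (m - i)) (fun i => br Q i)

/-- The spherical function. -/
noncomputable def om (m Q s j : ℕ) (i : ℕ) : ℚ := PP (Q : ℚ) (s : ℚ) m j i / PP (Q : ℚ) (s : ℚ) m 0 i

theorem om_zero (m Q s j : ℕ) : om m Q s j 0 = 1 := by
  unfold om
  rw [PP_zero, PP_zero, div_one]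

/-- The eigenvalue of the distance one relation. -/
noncomputable def theta (m Q s j : ℕ) : ℚ := (s : ℚ) * br Q (m - j) - br Q j

theorem rec_om {m Q s : ℕ} (hQ : 2 ≤ Q) (hs : 1 ≤ s) {j : ℕ} (hj : j ≤ m) :
    DR.Rec m (fun i => s * Q ^ i * br Q (m - i)) (fun i => br Q i) (theta m Q s j) (om m Q s j) := by
  intro i hi
  have hQ' : (1 : ℚ) < Q := by exact_mod_cast hQ
  have hs' : (0 : ℚ) < s := by exact_mod_cast hs
  have hQ1 : (0 : ℚ) < (Q : ℚ) - 1 := by linarith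
  have hk := (val_pos hQ' hs' hi).ne'
  apply mul_left_cancel₀ hQ1.ne'
  apply mul_left_cancel₀ hk
  have b1 := br_mul (K := ℚ) Q i
  have b2 := br_mul (K := ℚ) Q m
  have b3 := br_mul (K := ℚ) Q (m - i)
  have b4 := br_mul (K := ℚ) Q (m - j)
  have b5 := br_mul (K := ℚ) Q j
  have q1 : (Q : ℚ) ^ m = (Q : ℚ) ^ i * (Q : ℚ) ^ (m - i) := by rw [← pow_add]; congr 1; omega
  push_cast
  rw [pow_zero, mul_one, Nat.sub_zero]
  have u1 : ((Q : ℚ) - 1) * (s * (Q : ℚ) ^ i * br Q (m - i)) = s * ((Q : ℚ) ^ m - (Q : ℚ) ^ i) := by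
    rw [q1]
    linear_combination (s * (Q : ℚ) ^ i) * b3
  have u2 : ((Q : ℚ) - 1) * (s * br Q m) = s * ((Q : ℚ) ^ m - 1) := by
    linear_combination (s : ℚ) * b2
  have u3 : ((Q : ℚ) - 1) * theta m Q s j = s * ((Q : ℚ) ^ (m - j) - 1) - ((Q : ℚ) ^ j - 1) := by
    unfold theta
    linear_combination (s : ℚ) * b4 - b5
  -- the values
  have v1 : PP (Q : ℚ) (s : ℚ) m 0 i * om m Q s j i = PP (Q : ℚ) (s : ℚ) m j i := by
    unfold om; field_simp
  have v2 : PP (Q : ℚ) (s : ℚ) m 0 i * (s * ((Q : ℚ) ^ m - (Q : ℚ) ^ i) * om m Q s j (i + 1)) =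
      ((Q : ℚ) ^ (i + 1) - 1) * PP (Q : ℚ) (s : ℚ) m j (i + 1) := by
    rcases Nat.lt_or_ge i m with him | him
    · have hk' := (val_pos hQ' hs' (show i + 1 ≤ m by omega)).ne'
      have e := PP_val (Q : ℚ) (s : ℚ) m i
      unfold om
      rw [mul_div_assoc', mul_div_assoc', div_eq_iff hk']
      linear_combination (-PP (Q : ℚ) (s : ℚ) m j (i + 1)) * e
    · have : i = m := by omega
      subst this
      rw [PP_of_lt _ _ hj (Nat.lt_succ_self _)]
      ring
  rcases Nat.eq_zero_or_pos i with rfl | hi0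
  · have r := PP_rec_zero (Q : ℚ) (s : ℚ) hj
    have b0 : ((br Q 0 : ℕ) : ℚ) = 0 := by simp [br]
    rw [b0, zero_mul, add_zero]
    simp only [zero_add, pow_zero, pow_one, Nat.sub_zero, mul_one] at u1 v1 v2 r ⊢
    linear_combination (PP (Q : ℚ) (s : ℚ) m 0 0 * (om m Q s j 1 - om m Q s j 0)) * u1 + v2 +
      (PP (Q : ℚ) (s : ℚ) m 0 0 * om m Q s j 0) * u2 - (PP (Q : ℚ) (s : ℚ) m 0 0 * om m Q s j 0) * u3 +
      ((s : ℚ) - 1 - (s * (Q : ℚ) ^ (m - j) - (Q : ℚ) ^ j)) * v1 + r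
  · obtain ⟨k, rfl⟩ : ∃ k, i = k + 1 := ⟨i - 1, by omega⟩
    have r := PP_rec (Q : ℚ) (s : ℚ) hj k
    rw [Nat.add_sub_cancel]
    have v3 : PP (Q : ℚ) (s : ℚ) m 0 (k + 1) * (((Q : ℚ) ^ (k + 1) - 1) * om m Q s j k) =
        s * ((Q : ℚ) ^ m - (Q : ℚ) ^ k) * PP (Q : ℚ) (s : ℚ) m j k := by
      have hk' := (val_pos hQ' hs' (show k ≤ m by omega)).ne'
      have e := PP_val (Q : ℚ) (s : ℚ) m k
      unfold om
      rw [mul_div_assoc', mul_div_assoc', div_eq_iff hk']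
      linear_combination (PP (Q : ℚ) (s : ℚ) m j k) * e
    linear_combination (PP (Q : ℚ) (s : ℚ) m 0 (k + 1) * (om m Q s j (k + 1 + 1) - om m Q s j (k + 1))) * u1 + v2 +
      (PP (Q : ℚ) (s : ℚ) m 0 (k + 1) * (om m Q s j k - om m Q s j (k + 1))) * b1 + v3 +
      (PP (Q : ℚ) (s : ℚ) m 0 (k + 1) * om m Q s j (k + 1)) * u2 -
      (PP (Q : ℚ) (s : ℚ) m 0 (k + 1) * om m Q s j (k + 1)) * u3 +
      (((s : ℚ) - 1) * (Q : ℚ) ^ (k + 1) - (s * (Q : ℚ) ^ (m - j) - (Q : ℚ) ^ j)) * v1 + r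

/-- The valency recursion. -/
theorem val_rec {m Q s : ℕ} (hQ : 2 ≤ Q) {i : ℕ} (hi : i < m) :
    ((br Q (i + 1) : ℕ) : ℚ) * PP (Q : ℚ) (s : ℚ) m 0 (i + 1) =
      ((s * Q ^ i * br Q (m - i) : ℕ) : ℚ) * PP (Q : ℚ) (s : ℚ) m 0 i := by
  have hQ1 : (0 : ℚ) < (Q : ℚ) - 1 := by
    have : (1 : ℚ) < Q := by exact_mod_cast hQ
    linarith
  apply mul_left_cancel₀ hQ1.ne'
  have e := PP_val (Q : ℚ) (s : ℚ) m i
  have b1 := br_mul (K := ℚ) Q (i + 1)
  have b3 := br_mul (K := ℚ) Q (m - i)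
  have q1 : (Q : ℚ) ^ m = (Q : ℚ) ^ i * (Q : ℚ) ^ (m - i) := by rw [← pow_add]; congr 1; omega
  rw [q1] at e
  push_cast
  linear_combination PP (Q : ℚ) (s : ℚ) m 0 (i + 1) * b1 + e -
    (s * (Q : ℚ) ^ i * PP (Q : ℚ) (s : ℚ) m 0 i) * b3

namespace DP

variable {G : Type u} [Group G] {X : Type v} [MulAction G X] {d : X → X → ℕ} {m Q s : ℕ}

theorem up_pos (hQ : 2 ≤ Q) (hs : 1 ≤ s) : ∀ i < m, 0 < s * Q ^ i * br Q (m - i) := by
  intro i hi
  have := br_pos Q (show 0 < m - i by omega)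
  positivity

/-- The number of points. -/
theorem card_eq [Finite X] [Nonempty X] (hQ : 2 ≤ Q) (hs : 1 ≤ s) (h : DP G X d m Q s) :
    Nat.card X = ∏ l ∈ range m, (1 + s * Q ^ l) := by
  have h1 := DR.card_eq (up_pos hQ hs) (fun i hi _ => br_pos Q hi) h (k := fun i => PP (Q : ℚ) (s : ℚ) m 0 i)
    (PP_zero _ _ _ _) (fun i hi => val_rec hQ hi)
  rw [sum_val] at h1
  exact_mod_cast h1

/-- The valencies. -/
theorem kk_eq [Finite X] [Nonempty X] (hQ : 2 ≤ Q) (hs : 1 ≤ s) (h : DP G X d m Q s) (x₁ : X) (u : Fin (m + 1)) :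
    (Col.kk h.col x₁ u : ℚ) = PP (Q : ℚ) (s : ℚ) m 0 u :=
  DR.kk_eq (up_pos hQ hs) (fun i hi _ => br_pos Q hi) h (k := fun i => PP (Q : ℚ) (s : ℚ) m 0 i)
    (PP_zero _ _ _ _) (fun i hi => val_rec hQ hi) x₁ u

/-- **The characters of a dual polar scheme.** -/
theorem exists_char [Finite G] [Fintype X] [Nonempty X] (hQ : 2 ≤ Q) (hs : 1 ≤ s) (hm : 1 ≤ m)
    (h : DP G X d m Q s) {j : ℕ} (hj : j ≤ m) :
    ∃ χ : G → ℂ, IsIrrCharacter G χ ∧ χ 1 = ((ff (Q : ℚ) (s : ℚ) m j : ℚ) : ℂ) ∧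
      ∀ g : G, χ g = ((ff (Q : ℚ) (s : ℚ) m j : ℚ) : ℂ) / (Nat.card X : ℂ) *
        ∑ x, ((om m Q s j (d x (g • x)) : ℚ) : ℂ) := by
  have hQ' : (1 : ℚ) < Q := by exact_mod_cast hQ
  have hs' : (0 : ℚ) < s := by exact_mod_cast hs
  refine DR.exists_char hm (up_pos hQ hs) (fun i hi _ => br_pos Q hi) h (k := fun i => PP (Q : ℚ) (s : ℚ) m 0 i)
    (PP_zero _ _ _ _) (fun i hi => val_rec hQ hi) (om_zero m Q s j) (rec_om hQ hs hj) ?_
  rw [sum_val, ← norm_eq hQ' hs' hj]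
  congr 1
  refine sum_congr rfl fun i hi => ?_
  have e2 := (val_pos hQ' hs' (show i ≤ m from Nat.le_of_lt_succ (mem_range.1 hi))).ne'
  unfold om
  field_simp

end DP

end Cfsg.Agent.H722.DPol
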